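import Cfsg.Agent.Comp.G24.Lin0

set_option autoImplicit false
set_option maxRecDepth 100000
set_option Elab.async false

namespace Cfsg.Agent.Comp.G24

open Cfsg.Agent.Spec

theorem a1_0 : allR (actL O S1 J P1 P2.n As1) 0 127 = true := by decide +kernel
theorem a1_1 : allR (actL O S1 J P1 P2.n As1) 127 127 = true := by decide +kernel
theorem a1_2 : allR (actL O S1 J P1 P2.n As1) 254 127 = true := by decide +kernel
theorem a1_3 : allR (actL O S1 J P1 P2.n As1) 381 127 = true := by decide +kernel
theorem a1_4 : allR (actL O S1 J P1 P2.n As1) 508 127 = true := by decide +kernel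
theorem a1_5 : allR (actL O S1 J P1 P2.n As1) 635 127 = true := by decide +kernel
theorem a1_6 : allR (actL O S1 J P1 P2.n As1) 762 127 = true := by decide +kernel
theorem a1_7 : allR (actL O S1 J P1 P2.n As1) 889 127 = true := by decide +kernel
theorem a1_8 : allR (actL O S1 J P1 P2.n As1) 1016 127 = true := by decide +kernel
theorem a1_9 : allR (actL O S1 J P1 P2.n As1) 1143 127 = true := by decide +kernel
theorem a1_10 : allR (actL O S1 J P1 P2.n As1) 1270 127 = true := by decide +kernel
theorem a1_11 : allR (actL O S1 J P1 P2.n As1) 1397 127 = true := by decide +kernel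
theorem a1_12 : allR (actL O S1 J P1 P2.n As1) 1524 127 = true := by decide +kernel
theorem a1_13 : allR (actL O S1 J P1 P2.n As1) 1651 127 = true := by decide +kernel
theorem a1_14 : allR (actL O S1 J P1 P2.n As1) 1778 127 = true := by decide +kernel
theorem a1_15 : allR (actL O S1 J P1 P2.n As1) 1905 127 = true := by decide +kernel
theorem a1_16 : allR (actL O S1 J P1 P2.n As1) 2032 127 = true := by decide +kernel
theorem a1_17 : allR (actL O S1 J P1 P2.n As1) 2159 127 = true := by decide +kernel
theorem a1_18 : allR (actL O S1 J P1 P2.n As1) 2286 127 = true := by decide +kernel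
theorem a1_19 : allR (actL O S1 J P1 P2.n As1) 2413 127 = true := by decide +kernel
theorem a1_20 : allR (actL O S1 J P1 P2.n As1) 2540 127 = true := by decide +kernel
theorem a1_21 : allR (actL O S1 J P1 P2.n As1) 2667 127 = true := by decide +kernel
theorem a1_22 : allR (actL O S1 J P1 P2.n As1) 2794 127 = true := by decide +kernel
theorem a1_23 : allR (actL O S1 J P1 P2.n As1) 2921 127 = true := by decide +kernel
theorem a1_24 : allR (actL O S1 J P1 P2.n As1) 3048 127 = true := by decide +kernel
theorem a1_25 : allR (actL O S1 J P1 P2.n As1) 3175 127 = true := by decide +kernel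
theorem a1_26 : allR (actL O S1 J P1 P2.n As1) 3302 127 = true := by decide +kernel
theorem a1_27 : allR (actL O S1 J P1 P2.n As1) 3429 127 = true := by decide +kernel
theorem a1_28 : allR (actL O S1 J P1 P2.n As1) 3556 127 = true := by decide +kernel
theorem a1_29 : allR (actL O S1 J P1 P2.n As1) 3683 127 = true := by decide +kernel

end Cfsg.Agent.Comp.G24
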