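import Cfsg.Agent.Comp.G24.Lin0

set_option autoImplicit false
set_option maxRecDepth 100000
set_option Elab.async false

namespace Cfsg.Agent.Comp.G24

open Cfsg.Agent.Spec

theorem a1_30 : allR (actL O S1 J P1 P2.n As1) 3810 127 = true := by decide +kernel
theorem a1_31 : allR (actL O S1 J P1 P2.n As1) 3937 127 = true := by decide +kernel
theorem a1_32 : allR (actL O S1 J P1 P2.n As1) 4064 31 = true := by decide +kernel
theorem a2_0 : allR (actR O S2 J P2 As2) 0 694 = true := by decide +kernel
theorem a2_1 : allR (actR O S2 J P2 As2) 694 694 = true := by decide +kernel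
theorem a2_2 : allR (actR O S2 J P2 As2) 1388 694 = true := by decide +kernel
theorem a2_3 : allR (actR O S2 J P2 As2) 2082 694 = true := by decide +kernel
theorem a2_4 : allR (actR O S2 J P2 As2) 2776 694 = true := by decide +kernel
theorem a2_5 : allR (actR O S2 J P2 As2) 3470 625 = true := by decide +kernel

end Cfsg.Agent.Comp.G24
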