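import Cfsg.Agent.Comp.G24.Act0
import Cfsg.Agent.Comp.G24.Act1
import Cfsg.Agent.Comp.G24.Main

set_option autoImplicit false
set_option maxRecDepth 100000
set_option Elab.async false

namespace Cfsg.Agent.Comp.G24

open Cfsg.Agent.Spec

theorem ha1 : ∀ i, i < P1.n → actL O S1 J P1 P2.n As1 i = true := (range_step (lo := 4064) 31 (range_step (lo := 3937) 127 (range_step (lo := 3810) 127 (range_step (lo := 3683) 127 (range_step (lo := 3556) 127 (range_step (lo := 3429) 127 (range_step (lo := 3302) 127 (range_step (lo := 3175) 127 (range_step (lo := 3048) 127 (range_step (lo := 2921) 127 (range_step (lo := 2794) 127 (range_step (lo := 2667) 127 (range_step (lo := 2540) 127 (range_step (lo := 2413) 127 (range_step (lo := 2286) 127 (range_step (lo := 2159) 127 (range_step (lo := 2032) 127 (range_step (lo := 1905) 127 (range_step (lo := 1778) 127 (range_step (lo := 1651) 127 (range_step (lo := 1524) 127 (range_step (lo := 1397) 127 (range_step (lo := 1270) 127 (range_step (lo := 1143)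 127 (range_step (lo := 1016) 127 (range_step (lo := 889) 127 (range_step (lo := 762) 127 (range_step (lo := 635) 127 (range_step (lo := 508) 127 (range_step (lo := 381) 127 (range_step (lo := 254) 127 (range_step (lo := 127) 127 (range_step (lo := 0) 127 range_start a1_0) a1_1) a1_2) a1_3) a1_4) a1_5) a1_6) a1_7) a1_8) a1_9) a1_10) a1_11) a1_12) a1_13) a1_14) a1_15) a1_16) a1_17) a1_18) a1_19) a1_20) a1_21) a1_22) a1_23) a1_24) a1_25) a1_26) a1_27) a1_28) a1_29) a1_30) a1_31) a1_32)
theorem ha2 : ∀ i, i < P2.n → actR O S2 J P2 As2 i = true := (range_step (lo := 3470) 625 (range_step (lo := 2776) 694 (range_step (lo := 2082) 694 (range_step (lo := 1388) 694 (range_step (lo := 694) 694 (range_step (lo := 0) 694 range_start a2_0) a2_1) a2_2) a2_3) a2_4) a2_5)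
theorem hn : J.n = P2.n + P1.n := by decide
theorem model {F ι κ : Type*} [CommRing F] [Fintype ι] [DecidableEq ι] [Fintype κ] [DecidableEq κ]
    {dec : ℕ → F} (h : O.Sem dec) (σ1 : ι ≃ Fin S1.d) (σ2 : κ ≃ Fin S2.d) (gen : ℕ → GL ι F × GL κ F)
    (hg1 : ∀ j, j < J.m0 → ((gen j).1 : Matrix ι ι F) = mat dec S1 σ1 (nth As1 j))
    (hg2 : ∀ j, j < J.m0 → ((gen j).2 : Matrix κ κ F) = mat dec S2 σ2 (nth As2 j)) :
    J.Model ((vecLst h σ1 hl1 hp1).sum (vecLst h σ2 hl2 hp2) hn) gen ⊤ :=
  sum_model h σ1 σ2 hn hl1 hp1 hl2 hp2 hc ha1 ha2 gen hg1 hg2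

end Cfsg.Agent.Comp.G24
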