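import Cfsg.Agent.Comp.G24.Lin
import Cfsg.Agent.Comp.G24.Gen

/-! The group `G₂(4)`: order, element orders, and its six-dimensional module. -/

set_option autoImplicit false
set_option maxRecDepth 100000

namespace Cfsg.Agent.Comp.G24

open Cfsg.Agent.Spec Cfsg.Lie

noncomputable section

variable {F : Type*} [Field F]

theorem hd : chevG2.rank + chevG2.nroots = S1.d := rfl

theorem exists_sem [Fintype F] (hF : Fintype.card F = 4) :
    ∃ dec : ℕ → F, O.Sem dec ∧ CharP F 2 := by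
  have hc : CharP F 2 := charP_two_of_card (e := 2) hF
  obtain ⟨a, ha⟩ := exists_alpha4 hF
  exact ⟨_, tOps_sem (gOps_sem ha ic) (dec2_mod a 2) tc, hc⟩

def gens (dec : ℕ → F) (j : ℕ) : GL chevG2.Idx F × GL (Fin 6) F :=
  (glGens dec S1 (idxEquiv chevG2 hd) As1 As1 j, glGens dec S2 (Equiv.refl (Fin 6)) As2 As2 j)

theorem mdl {dec : ℕ → F} (h : O.Sem dec) :
    J.Model ((vecLst h (idxEquiv chevG2 hd) hl1 hp1).sum (vecLst h (Equiv.refl (Fin 6)) hl2 hp2) hn)
      (gens dec) ⊤ :=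
  model h _ _ _ (glGens_val h _ inv1) (glGens_val h _ inv2)

theorem x_eq [CharP F 2] {dec : ℕ → F} (h : O.Sem dec) (r : Fin chevG2.nroots) {t : ℕ} (ht : t < 4) :
    chevG2.xMat F r (dec t) = mat dec S1 (idxEquiv chevG2 hd) (Xc r.1 t) := by
  have := xTab_spec h (ic2_spec h) hd (all1_spec xt r.1 (Nat.zero_le _)
    (by have : r.1 < 12 := r.2; omega)) ht
  unfold ChevalleyDatum.x at this
  rwa [dif_pos r.2] at this

theorem map_eq [Fintype F] (hF : Fintype.card F = 4) [CharP F 2] {dec : ℕ → F} (h : O.Sem dec) :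
    (J.G (gens dec)).map (MonoidHom.fst _ _) = chevG2.group F := by
  apply le_antisymm
  · rw [map_fst_G]
    apply Subgroup.closure_mono
    rintro _ ⟨j, hj, rfl⟩
    have hj' : j < 4 := hj
    have e := glGens_val h (idxEquiv chevG2 hd) inv1 j hj'
    rw [As1_eq] at e
    interval_cases j
    · exact ⟨⟨7, by decide⟩, dec 2, e.trans (x_eq h ⟨7, by decide⟩ (by omega)).symm⟩
    · exact ⟨⟨6, by decide⟩, dec 1, e.trans (x_eq h ⟨6, by decide⟩ (by omega)).symm⟩
    · exact ⟨⟨4, by decide⟩, dec 1, e.trans (x_eq h ⟨4, by decide⟩ (by omega)).symm⟩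
    · exact ⟨⟨5, by decide⟩, dec 1, e.trans (x_eq h ⟨5, by decide⟩ (by omega)).symm⟩
  · apply (Subgroup.closure_le _).2
    rintro g ⟨r, t, hg⟩
    obtain ⟨a, ha, rfl⟩ := h.surj hF t
    have ha' : a < 4 := ha
    rw [x_eq h r ha'] at hg
    have hc := hc
    unfold sumChk at hc
    simp only [band_true] at hc
    refine mem_fst (mdl h) hs (chain0 (mdl h)) (GpL_eq _) (by decide) (bl := bl1)
      (fun i hi => blt_true.1 (band_true.1 (allL_spec hc.2.2.2.2.1 i hi)).1)
      (fun g hg => Units.ext (mat_eq_one_of_fix h _ hc.1 _ hg))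
      (t := fun i j => mvChk O S1 (Xc r.1 a) (P1.c i) (P1.c j)) (fun i j hij => ?_)
      (all1_spec (all1_spec xm r.1 (Nat.zero_le _) (by have : r.1 < 12 := r.2; omega)) a
        (Nat.zero_le _) (by omega))
    show (g : Matrix chevG2.Idx chevG2.Idx F).mulVec _ = _
    rw [hg]
    exact mvChk_spec h _ hij

def iso [Fintype F] (hF : Fintype.card F = 4) [CharP F 2] {dec : ℕ → F} (h : O.Sem dec) :
    J.G (gens dec) ≃* chevG2.group F :=
  (fstEquiv (mdl h) (chain0 (mdl h)) (GpL_eq _) hb).trans (MulEquiv.subgroupCongr (map_eq hF h))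

theorem card_G24 [Fintype F] (hF : Fintype.card F = 4) : Nat.card (chevG2.group F) = 251596800 := by
  obtain ⟨dec, h, _⟩ := exists_sem hF
  rw [← Nat.card_congr (iso hF h).toEquiv]
  exact card (mdl h)

theorem spec_G24 [Fintype F] (hF : Fintype.card F = 4) :
    Set.range (orderOf : chevG2.group F → ℕ) =
      {n | n ∈ [1, 2, 3, 4, 5, 6, 7, 8, 10, 12, 13, 15, 21]} := by
  obtain ⟨dec, h, _⟩ := exists_sem hF
  rw [← spec_congr (iso hF h)]
  exact spec (mdl h)

theorem exists_large [Fintype F] (hF : Fintype.card F = 4) (N : ℕ) :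
    ∃ (H : Type) (_ : Group H) (_ : Finite H), N < Nat.card H ∧
      ((∀ p : ℕ, p.Prime → (p ∣ Nat.card (chevG2.group F) ↔ p ∣ Nat.card H)) ∧
      (∀ p q : ℕ, p.Prime → q.Prime → p ≠ q →
        ((∃ g : chevG2.group F, orderOf g = p * q) ↔ (∃ g : H, orderOf g = p * q)))) := by
  obtain ⟨dec, h, _⟩ := exists_sem hF
  let _ := sndAction (V := Fin 6 → F) (J.G (gens dec))
  have := finite (mdl h)
  have hc := hc
  unfold sumChk at hc
  simp only [band_true] at hc
  have hz : ∀ n, zeroAll2 O S2 P2 J bl2 R os n = true → ∀ g : J.G (gens dec), orderOf g = n →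
      ∀ v : Fin 6 → F, affNorm g v = 0 := fun n hz g hg v =>
    norm_snd_eq_zero h (Equiv.refl (Fin 6)) hc.2.1
      (fun i hi => blt_true.1 (band_true.1 (allL_spec hc.2.2.2.2.2.1 i hi)).1) (mdl h)
      (ctx (mdl h)) (classes (mdl h)) (ords (mdl h)) hz g hg v
  have h2 : ∀ w : Fin 6 → F, 2 • w = 0 := fun w => by
    funext i
    simp [CharTwo.two_eq_zero]
  obtain ⟨G, _, _, h1, h3, h4⟩ := exists_large_same_primeGraph_aff (H := J.G (gens dec))
    (V := Fin 6 → F) Nat.prime_two h2 (by rw [spec (mdl h)]; simp) (fun g v hp hne hv hgv => by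
      have hm : orderOf g ∈ {n | n ∈ [1, 2, 3, 4, 5, 6, 7, 8, 10, 12, 13, 15, 21]} :=
        spec (mdl h) ▸ ⟨g, rfl⟩
      have key : ∀ k, orderOf g = 2 * k + 1 → affNorm g v ≠ 0 := fun k hk => by
        rw [affNorm_of_fixed g v hgv, hk, add_smul, mul_smul, h2, zero_add, one_smul]
        exact hv
      have h7 : orderOf g ≠ 7 := fun e => key 3 e (hz 7 z7 g e v)
      have h13 : orderOf g ≠ 13 := fun e => key 6 e (hz 13 z13 g e v)
      rw [spec (mdl h)]
      generalize orderOf g = n at *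
      simp only [List.mem_cons, List.not_mem_nil, or_false, Set.mem_ofPred_eq] at hm ⊢
      rcases hm with rfl | rfl | rfl | rfl | rfl | rfl | rfl | rfl | rfl | rfl | rfl | rfl | rfl <;>
        first | omega | (exfalso; revert hp; decide)) N
  refine ⟨G, inferInstance, inferInstance, h1, fun p hp => ?_, fun p q hp hq hpq => ?_⟩
  · rw [← Nat.card_congr (iso hF h).toEquiv]; exact h3 p hp
  · rw [← h4 p q hp hq hpq]
    exact Set.ext_iff.1 (spec_congr (iso hF h)).symm (p * q)

end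

end Cfsg.Agent.Comp.G24
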